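import Mathlib.GroupTheory.PGroup
import Mathlib.Algebra.Group.Subgroup.Order
import Mathlib.Algebra.GroupWithZero.Subgroup
import Mathlib.Algebra.Module.Submodule.Pointwise
import Mathlib.Tactic

/-!
# A fixed-point theorem for p-groups acting on lattices of subgroups (helper264)

`M` is a finite abelian `p`-group, `𝓢` a sublattice of its lattice of subgroups, `Γ` a finite `p`-group acting on `M` and
preserving `𝓢`, and `M` is generated by the `Γ`-conjugates of an atom `L₀` of `𝓢`. Suppose that `Γ` is generated by a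
conjugation invariant set of elements `t` that act quadratically in the sense that `L ⊔ t • L = L ⊔ E` with `E ∈ 𝓢`
centralised by `t` (`L` a conjugate of `L₀`), and that the `Γ`-invariant members of `𝓢` have `Γ`-invariant complements in
`𝓢`. Then `L₀` is `Γ`-invariant (`core`). This is the finite analogue of Borel's fixed point theorem that is used for
Glauberman's centrally large subgroups.
-/

set_option autoImplicit false

open scoped Pointwise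

namespace Cfsg.Agent.H264.FixAtom

variable {M : Type*} [AddCommGroup M]

/-- atoms of a family of subgroups -/
def At (𝓢 : Set (AddSubgroup M)) (L : AddSubgroup M) : Prop :=
  L ∈ 𝓢 ∧ L ≠ ⊥ ∧ ∀ S ∈ 𝓢, S ≤ L → S = ⊥ ∨ S = L

/-- sublattices of the lattice of subgroups -/
structure Lat (𝓢 : Set (AddSubgroup M)) : Prop where
  bot : ⊥ ∈ 𝓢
  top : ⊤ ∈ 𝓢
  sup : ∀ a ∈ 𝓢, ∀ b ∈ 𝓢, a ⊔ b ∈ 𝓢
  inf : ∀ a ∈ 𝓢, ∀ b ∈ 𝓢, a ⊓ b ∈ 𝓢

/-- there is a third atom on the line through `a` and `b` -/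
def Th (𝓢 : Set (AddSubgroup M)) (a b : AddSubgroup M) : Prop :=
  ∃ c, At 𝓢 c ∧ c ≤ a ⊔ b ∧ c ≠ a ∧ c ≠ b

variable {𝓢 : Set (AddSubgroup M)}

section Basic

theorem exists_ne {L : AddSubgroup M} (h : L ≠ ⊥) : ∃ x ∈ L, x ≠ 0 := by
  by_contra hcon
  push Not at hcon
  exact h (eq_bot_iff.mpr fun x hx => AddSubgroup.mem_bot.mpr (hcon x hx))

theorem At.inf_eq {L S : AddSubgroup M} (h𝓢 : Lat 𝓢) (hL : At 𝓢 L) (hS : S ∈ 𝓢) : L ⊓ S = ⊥ ∨ L ≤ S := by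
  rcases hL.2.2 (L ⊓ S) (h𝓢.inf _ hL.1 _ hS) inf_le_left with h | h
  · exact Or.inl h
  · exact Or.inr (inf_eq_left.mp h)

theorem At.disj {L L' : AddSubgroup M} (h𝓢 : Lat 𝓢) (hL : At 𝓢 L) (hL' : At 𝓢 L') (hne : L ≠ L') :
    L ⊓ L' = ⊥ := by
  rcases At.inf_eq h𝓢 hL hL'.1 with h | h
  · exact h
  · rcases hL'.2.2 L hL.1 h with h1 | h1
    · exact absurd h1 hL.2.1
    · exact absurd h1 hne

theorem exists_at [Finite M] {X : AddSubgroup M} (hX : X ∈ 𝓢) (hne : X ≠ ⊥) : ∃ L, At 𝓢 L ∧ L ≤ X := by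
  obtain ⟨m, hm, hmin⟩ := (Set.toFinite {S : AddSubgroup M | S ∈ 𝓢 ∧ S ≠ ⊥ ∧ S ≤ X}).exists_minimalFor id _
    ⟨X, hX, hne, le_rfl⟩
  refine ⟨m, ⟨hm.1, hm.2.1, fun S hS hSm => ?_⟩, hm.2.2⟩
  by_cases h : S = ⊥
  · exact Or.inl h
  · exact Or.inr (le_antisymm hSm (hmin ⟨hS, h, hSm.trans hm.2.2⟩ hSm))

/-- exchange -/
theorem exch {a b c : AddSubgroup M} (h𝓢 : Lat 𝓢) (ha : At 𝓢 a) (hb : At 𝓢 b) (hc : At 𝓢 c)
    (h : c ≤ a ⊔ b) (hne : c ≠ a) : b ≤ a ⊔ c := by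
  rcases At.inf_eq h𝓢 hb (h𝓢.sup _ ha.1 _ hc.1) with h1 | h1
  · exfalso
    have h2 : c ≤ a := by
      intro x hx
      obtain ⟨y, hy, z, hz, rfl⟩ := AddSubgroup.mem_sup.mp (h hx)
      have hz' : z ∈ b ⊓ (a ⊔ c) := by
        refine ⟨hz, ?_⟩
        have : z = -y + (y + z) := by abel
        rw [this]
        exact add_mem (AddSubgroup.mem_sup_left (neg_mem hy)) (AddSubgroup.mem_sup_right hx)
      rw [h1, AddSubgroup.mem_bot] at hz'
      rw [hz', add_zero]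
      exact hy
    rcases ha.2.2 c hc.1 h2 with h3 | h3
    · exact hc.2.1 h3
    · exact hne h3
  · exact h1

theorem Th.symm {a b : AddSubgroup M} (h : Th 𝓢 a b) : Th 𝓢 b a := by
  obtain ⟨c, hc, h1, h2, h3⟩ := h
  exact ⟨c, hc, by rwa [sup_comm], h3, h2⟩

/-- transitivity of perspectivity -/
theorem Th.trans [Finite M] {a b c : AddSubgroup M} (h𝓢 : Lat 𝓢) (ha : At 𝓢 a) (hb : At 𝓢 b) (hc : At 𝓢 c)
    (hab : a ≠ b) (hbc : b ≠ c) (hac : a ≠ c) (h1 : Th 𝓢 a b) (h2 : Th 𝓢 b c) : Th 𝓢 a c := by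
  obtain ⟨d, hd, hd1, hda, hdb⟩ := h1
  obtain ⟨e, he, he1, heb, hec⟩ := h2
  by_cases hcc : c ≤ a ⊔ b
  · exact ⟨b, hb, exch h𝓢 ha hb hc hcc hac.symm, hab.symm, hbc⟩
  -- `X = (a ⊔ c) ⊓ (d ⊔ e)`
  have hX : (a ⊔ c) ⊓ (d ⊔ e) ∈ 𝓢 := h𝓢.inf _ (h𝓢.sup _ ha.1 _ hc.1) _ (h𝓢.sup _ hd.1 _ he.1)
  have hbe : b ≤ c ⊔ e := exch h𝓢 hc hb he (by rwa [sup_comm]) hec
  have hce : c ≤ b ⊔ e := exch h𝓢 hb hc he he1 heb
  have hbd : b ≤ a ⊔ d := exch h𝓢 ha hb hd hd1 hda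
  have had : a ≤ b ⊔ d := exch h𝓢 hb ha hd (by rwa [sup_comm]) hdb
  have hXne : (a ⊔ c) ⊓ (d ⊔ e) ≠ ⊥ := by
    intro hbot
    obtain ⟨x, hx, hx0⟩ := exists_ne hd.2.1
    obtain ⟨α, hα, β, hβ, rfl⟩ := AddSubgroup.mem_sup.mp (hd1 hx)
    obtain ⟨γ, hγ, ε, hε, rfl⟩ := AddSubgroup.mem_sup.mp (hbe hβ)
    have h3 : α + γ ∈ (a ⊔ c) ⊓ (d ⊔ e) := by
      refine ⟨add_mem (AddSubgroup.mem_sup_left hα) (AddSubgroup.mem_sup_right hγ), ?_⟩
      have : α + γ = (α + (γ + ε)) + -ε := by abel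
      rw [this]
      exact add_mem (AddSubgroup.mem_sup_left hx) (AddSubgroup.mem_sup_right (neg_mem hε))
    rw [hbot, AddSubgroup.mem_bot] at h3
    have h4 : α ∈ a ⊓ c := by
      refine AddSubgroup.mem_inf.mpr ⟨hα, ?_⟩
      rw [eq_neg_of_add_eq_zero_left h3]
      exact neg_mem hγ
    rw [At.disj h𝓢 ha hc hac, AddSubgroup.mem_bot] at h4
    have h5 : α + (γ + ε) ∈ d ⊓ b := ⟨hx, by rw [h4, zero_add]; exact hβ⟩
    rw [At.disj h𝓢 hd hb hdb, AddSubgroup.mem_bot] at h5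
    exact hx0 h5
  obtain ⟨f, hf, hfX⟩ := exists_at hX hXne
  refine ⟨f, hf, hfX.trans inf_le_left, ?_, ?_⟩
  · rintro rfl
    have h3 : f ≤ d ⊔ e := hfX.trans inf_le_right
    have h4 : e ≤ d ⊔ f := exch h𝓢 hd he hf h3 (Ne.symm hda)
    have h5 : e ≤ f ⊔ b := h4.trans (sup_le hd1 le_sup_left)
    exact hcc (hce.trans (sup_le le_sup_right h5))
  · rintro rfl
    have h3 : f ≤ e ⊔ d := by rw [sup_comm]; exact hfX.trans inf_le_right
    have h4 : d ≤ e ⊔ f := exch h𝓢 he hd hf h3 (Ne.symm hec)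
    have h5 : d ≤ b ⊔ f := h4.trans (sup_le he1 le_sup_right)
    have h6 : a ≤ b ⊔ f := had.trans (sup_le le_sup_left h5)
    have h7 : f ≤ b ⊔ a := exch h𝓢 hb hf ha h6 hab
    exact hcc (by rwa [sup_comm])

/-- equal or perspective -/
def Eqv (𝓢 : Set (AddSubgroup M)) (a b : AddSubgroup M) : Prop := a = b ∨ Th 𝓢 a b

theorem Eqv.symm {a b : AddSubgroup M} (h : Eqv 𝓢 a b) : Eqv 𝓢 b a := by
  rcases h with h | h
  · exact Or.inl h.symm
  · exact Or.inr (Th.symm h)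

theorem Eqv.trans [Finite M] {a b c : AddSubgroup M} (h𝓢 : Lat 𝓢) (ha : At 𝓢 a) (hb : At 𝓢 b) (hc : At 𝓢 c)
    (h1 : Eqv 𝓢 a b) (h2 : Eqv 𝓢 b c) : Eqv 𝓢 a c := by
  rcases h1 with rfl | h1
  · exact h2
  rcases h2 with rfl | h2
  · exact Or.inr h1
  by_cases hab : a = b
  · subst hab; exact Or.inr h2
  by_cases hbc : b = c
  · subst hbc; exact Or.inr h1
  by_cases hac : a = c
  · exact Or.inl hac
  · exact Or.inr (Th.trans h𝓢 ha hb hc hab hbc hac h1 h2)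

variable {𝒪 : Set (AddSubgroup M)}

/-- every atom is equivalent to a member of a generating set of atoms -/
theorem exists_eqv [Finite M] (h𝓢 : Lat 𝓢) (h𝒪 : ∀ L ∈ 𝒪, At 𝓢 L) (hspan : sSup 𝒪 = ⊤) {L : AddSubgroup M}
    (hL : At 𝓢 L) : ∃ L' ∈ 𝒪, Eqv 𝓢 L L' := by
  obtain ⟨C, hC, hmax⟩ := (Set.toFinite {S : AddSubgroup M | S ∈ 𝓢 ∧ S ⊓ L = ⊥}).exists_maximalFor id _
    ⟨⊥, h𝓢.bot, bot_inf_eq _⟩
  have h1 : ∃ L' ∈ 𝒪, ¬ L' ≤ C := by
    by_contra hcon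
    push Not at hcon
    have h2 : C = ⊤ := top_le_iff.mp (hspan ▸ sSup_le hcon)
    have h3 := hC.2
    rw [h2, top_inf_eq] at h3
    exact hL.2.1 h3
  obtain ⟨L', hL', hLC⟩ := h1
  refine ⟨L', hL', ?_⟩
  by_cases he : L = L'
  · exact Or.inl he
  right
  have h2 : L' ⊓ C = ⊥ := ((h𝒪 L' hL').inf_eq h𝓢 hC.1).resolve_right hLC
  have h3 : L ≤ C ⊔ L' := by
    by_contra hcon
    have h4 : L ⊓ (C ⊔ L') = ⊥ := (hL.inf_eq h𝓢 (h𝓢.sup _ hC.1 _ (h𝒪 L' hL').1)).resolve_right hcon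
    have h5 := hmax (j := C ⊔ L') ⟨h𝓢.sup _ hC.1 _ (h𝒪 L' hL').1, by rw [inf_comm]; exact h4⟩ le_sup_left
    exact hLC (le_sup_right.trans h5)
  have hX : (L ⊔ L') ⊓ C ∈ 𝓢 := h𝓢.inf _ (h𝓢.sup _ hL.1 _ (h𝒪 L' hL').1) _ hC.1
  have hXne : (L ⊔ L') ⊓ C ≠ ⊥ := by
    intro hbot
    apply hL.2.1
    rw [eq_bot_iff]
    intro l hl
    obtain ⟨c, hc, l', hl', rfl⟩ := AddSubgroup.mem_sup.mp (h3 hl)
    have h6 : c ∈ (L ⊔ L') ⊓ C := by
      refine ⟨?_, hc⟩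
      have : c = (c + l') + -l' := by abel
      rw [this]
      exact add_mem (AddSubgroup.mem_sup_left hl) (AddSubgroup.mem_sup_right (neg_mem hl'))
    rw [hbot, AddSubgroup.mem_bot] at h6
    have h7 : c + l' ∈ L ⊓ L' := ⟨hl, by rw [h6, zero_add]; exact hl'⟩
    rw [hL.disj h𝓢 (h𝒪 L' hL') he, AddSubgroup.mem_bot] at h7
    rw [AddSubgroup.mem_bot, h7]
  obtain ⟨f, hf, hfX⟩ := exists_at hX hXne
  refine ⟨f, hf, hfX.trans inf_le_left, ?_, ?_⟩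
  · rintro rfl
    have h8 := hC.2
    rw [inf_comm, inf_eq_left.mpr (hfX.trans inf_le_right)] at h8
    exact hf.2.1 h8
  · rintro rfl
    rw [inf_eq_left.mpr (hfX.trans inf_le_right)] at h2
    exact hf.2.1 h2

/-- complements exist -/
theorem exists_compl [Finite M] (h𝓢 : Lat 𝓢) (h𝒪 : ∀ L ∈ 𝒪, At 𝓢 L) (hspan : sSup 𝒪 = ⊤) {D : AddSubgroup M}
    (hD : D ∈ 𝓢) : ∃ C ∈ 𝓢, C ⊓ D = ⊥ ∧ C ⊔ D = ⊤ := by
  obtain ⟨C, hC, hmax⟩ := (Set.toFinite {S : AddSubgroup M | S ∈ 𝓢 ∧ S ⊓ D = ⊥}).exists_maximalFor id _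
    ⟨⊥, h𝓢.bot, bot_inf_eq _⟩
  refine ⟨C, hC.1, hC.2, ?_⟩
  rw [← top_le_iff, ← hspan]
  refine sSup_le fun L hL => ?_
  by_contra hcon
  have h1 : L ⊓ (C ⊔ D) = ⊥ := ((h𝒪 L hL).inf_eq h𝓢 (h𝓢.sup _ hC.1 _ hD)).resolve_right hcon
  have h2 : (C ⊔ L) ⊓ D = ⊥ := by
    rw [eq_bot_iff]
    rintro x ⟨hx, hxD⟩
    obtain ⟨c, hc, l, hl, rfl⟩ := AddSubgroup.mem_sup.mp hx
    have h3 : l ∈ L ⊓ (C ⊔ D) := by
      refine ⟨hl, ?_⟩
      have : l = -c + (c + l) := by abel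
      rw [this]
      exact add_mem (AddSubgroup.mem_sup_left (neg_mem hc)) (AddSubgroup.mem_sup_right hxD)
    rw [h1, AddSubgroup.mem_bot] at h3
    have h4 : c + l ∈ C ⊓ D := ⟨by rw [h3, add_zero]; exact hc, hxD⟩
    rw [hC.2] at h4
    exact h4
  have h5 := hmax (j := C ⊔ L) ⟨h𝓢.sup _ hC.1 _ (h𝒪 L hL).1, h2⟩ le_sup_left
  exact hcon (le_sup_right.trans (h5.trans le_sup_left))

end Basic

section Action

variable {Γ : Type*} [Group Γ] [DistribMulAction Γ M] {p : ℕ} [Fact p.Prime]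

/-- `p`-groups acting on nontrivial abelian `p`-groups have nontrivial fixed points -/
theorem exists_fixed [Finite M] [Finite Γ] (hΓ : IsPGroup p Γ) (hM : ∃ n, Nat.card M = p ^ n) (K : Subgroup Γ)
    (S : AddSubgroup M) (hS : ∀ g ∈ K, ∀ x ∈ S, g • x ∈ S) (hne : S ≠ ⊥) :
    ∃ x ∈ S, x ≠ 0 ∧ ∀ g ∈ K, g • x = x := by
  let _ : MulAction K S :=
    { smul := fun g x => ⟨(g : Γ) • (x : M), hS g g.2 x x.2⟩
      one_smul := fun x => Subtype.ext (one_smul Γ (x : M))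
      mul_smul := fun g h x => Subtype.ext (mul_smul (g : Γ) (h : Γ) (x : M)) }
  have hsm : ∀ (g : K) (x : S), ((g • x : S) : M) = (g : Γ) • (x : M) := fun _ _ => rfl
  have hK : IsPGroup p K := hΓ.to_subgroup K
  obtain ⟨n, hn⟩ := hM
  have h1 : Nat.card S ∣ p ^ n := hn ▸ AddSubgroup.card_addSubgroup_dvd_card S
  have h2 : p ∣ Nat.card S := by
    obtain ⟨k, -, hk⟩ := (Nat.dvd_prime_pow Fact.out).mp h1
    rw [hk]
    refine dvd_pow_self p ?_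
    rintro rfl
    rw [pow_zero] at hk
    exact hne (AddSubgroup.card_eq_one.mp hk)
  have h0 : (0 : S) ∈ MulAction.fixedPoints K S := fun g => Subtype.ext (by rw [hsm]; exact smul_zero _)
  obtain ⟨b, hb, hb0⟩ := hK.exists_fixed_point_of_prime_dvd_card_of_fixed_point S h2 h0
  refine ⟨b, b.2, fun h => hb0 (Subtype.ext h.symm), fun g hg => ?_⟩
  have := congrArg Subtype.val (hb ⟨g, hg⟩)
  rwa [hsm] at this

theorem smul_bot' (g : Γ) : g • (⊥ : AddSubgroup M) = ⊥ := by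
  rw [eq_bot_iff]
  intro x hx
  obtain ⟨y, hy, rfl⟩ := (AddSubgroup.mem_smul_pointwise_iff_exists _ _ _).mp hx
  rw [AddSubgroup.mem_bot] at hy ⊢
  rw [hy, smul_zero]

theorem card_smul (g : Γ) (S : AddSubgroup M) : Nat.card (g • S : AddSubgroup M) = Nat.card S := by
  refine Nat.card_congr (Equiv.symm (Equiv.ofBijective
    (fun x : S => (⟨g • (x : M), AddSubgroup.smul_mem_pointwise_smul _ g S x.2⟩ : (g • S : AddSubgroup M)))
    ⟨fun x y h => ?_, ?_⟩))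
  · exact Subtype.ext (smul_left_cancel g (congrArg Subtype.val h))
  · rintro ⟨x, hx⟩
    obtain ⟨y, hy, rfl⟩ := (AddSubgroup.mem_smul_pointwise_iff_exists _ _ _).mp hx
    exact ⟨⟨y, hy⟩, rfl⟩

variable (hact : ∀ g : Γ, ∀ S ∈ 𝓢, g • S ∈ 𝓢)

include hact in
theorem At.smul {L : AddSubgroup M} (hL : At 𝓢 L) (g : Γ) : At 𝓢 (g • L) := by
  refine ⟨hact g L hL.1, fun h => hL.2.1 ?_, fun S hS hSL => ?_⟩
  · have h1 := congrArg (fun X => g⁻¹ • X) h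
    simpa [smul_bot'] using h1
  · rcases hL.2.2 (g⁻¹ • S) (hact _ S hS) ((AddSubgroup.le_pointwise_smul_iff).mp hSL) with h | h
    · left
      have h1 := congrArg (fun X => g • X) h
      simpa [smul_bot'] using h1
    · right
      have h1 := congrArg (fun X => g • X) h
      simpa using h1

/-- invariance from an inclusion -/
theorem smul_eq_of_le [Finite M] {S : AddSubgroup M} {g : Γ} (h : g • S ≤ S) : g • S = S := by
  refine AddSubgroup.eq_of_le_of_card_ge h ?_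
  rw [card_smul]

theorem smul_eq_of_ge [Finite M] {S : AddSubgroup M} {g : Γ} (h : S ≤ g • S) : g • S = S := by
  refine (AddSubgroup.eq_of_le_of_card_ge h ?_).symm
  rw [card_smul]

theorem zpow_smul_mem {S : AddSubgroup M} {t : Γ} (h : t • S = S) :
    ∀ g ∈ Subgroup.zpowers t, ∀ x ∈ S, g • x ∈ S := by
  intro g hg x hx
  have h1 : g • S = S := by
    have h2 : Subgroup.zpowers t ≤ MulAction.stabilizer Γ S := by
      rw [Subgroup.zpowers_le]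
      exact h
    exact h2 hg
  rw [← h1]
  exact AddSubgroup.smul_mem_pointwise_smul x g S hx

/-- **Lemma A** -/
theorem cent_of_fix [Finite M] [Finite Γ] (hΓ : IsPGroup p Γ) (hM : ∃ n, Nat.card M = p ^ n) (h𝓢 : Lat 𝓢)
    (hact : ∀ g : Γ, ∀ S ∈ 𝓢, g • S ∈ 𝓢) {t : Γ} {E L : AddSubgroup M} (hE : At 𝓢 E)
    (hEt : ∀ e ∈ E, t • e = e) (hL : At 𝓢 L) (hLt : t • L = L) (hth : Eqv 𝓢 L E) : ∀ x ∈ L, t • x = x := by
  rcases hth with rfl | ⟨c, hc, hc1, hcL, hcE⟩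
  · exact hEt
  have hLc : L ≤ E ⊔ c := exch h𝓢 hE hL hc (by rwa [sup_comm]) hcE
  have key : ∀ a ∈ L, ∀ l ∈ c, ∀ e ∈ E, a = e + l → t • a - a = t • l - l := by
    intro a _ l _ e he h
    rw [h, smul_add, hEt e he]
    abel
  obtain ⟨a, ha, ha0, hta⟩ := exists_fixed hΓ hM (Subgroup.zpowers t) L (zpow_smul_mem hLt) hL.2.1
  have hta' := hta t (Subgroup.mem_zpowers t)
  obtain ⟨e, he, l, hl, hel⟩ := AddSubgroup.mem_sup.mp (hLc ha)
  have h1 := key a ha l hl e he hel.symm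
  rw [hta', sub_self] at h1
  have h2 : t • l = l := (sub_eq_zero.mp h1.symm)
  have hl0 : l ≠ 0 := by
    rintro rfl
    rw [add_zero] at hel
    subst hel
    have hne : L ≠ E := by
      rintro rfl
      have : c ≤ L := by simpa using hc1
      rcases hL.2.2 c hc.1 this with h | h
      · exact hc.2.1 h
      · exact hcL h
    have h3 : e ∈ L ⊓ E := ⟨ha, he⟩
    rw [hL.disj h𝓢 hE hne, AddSubgroup.mem_bot] at h3
    exact ha0 h3
  have hct : t • c = c := by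
    by_contra hcon
    have h3 : l ∈ t • c ⊓ c := ⟨by
      have := AddSubgroup.smul_mem_pointwise_smul l t c hl
      rwa [h2] at this, hl⟩
    rw [At.disj h𝓢 (At.smul hact hc t) hc hcon, AddSubgroup.mem_bot] at h3
    exact hl0 h3
  intro x hx
  obtain ⟨e', he', l', hl', hel'⟩ := AddSubgroup.mem_sup.mp (hLc hx)
  have h4 := key x hx l' hl' e' he' hel'.symm
  have h5 : t • x - x ∈ c ⊓ L := by
    refine AddSubgroup.mem_inf.mpr ⟨?_, ?_⟩
    · rw [h4]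
      refine sub_mem ?_ hl'
      have := AddSubgroup.smul_mem_pointwise_smul l' t c hl'
      rwa [hct] at this
    · refine sub_mem ?_ hx
      have := AddSubgroup.smul_mem_pointwise_smul x t L hx
      rwa [hLt] at this
  rw [At.disj h𝓢 hc hL hcL, AddSubgroup.mem_bot] at h5
  exact sub_eq_zero.mp h5

/-- `x ↦ t • x - x` -/
def dl (t : Γ) : M →+ M where
  toFun x := t • x - x
  map_zero' := by simp
  map_add' x y := by rw [smul_add]; abel

theorem dl_apply (t : Γ) (x : M) : dl t x = t • x - x := rfl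

/-- nilpotency of `t - 1` -/
theorem dl_nilp [Finite M] [Finite Γ] (hΓ : IsPGroup p Γ) (hM : ∃ n, Nat.card M = p ^ n) (t : Γ)
    (S : AddSubgroup M) (hS : t • S = S) : ∃ k : ℕ, ∀ x ∈ S, (dl t)^[k] x = 0 := by
  induction S using WellFoundedLT.induction with
  | ind S ih =>
    by_cases hbot : S = ⊥
    · exact ⟨0, fun x hx => by rw [hbot] at hx; simpa using hx⟩
    have hmem : ∀ x ∈ S, t • x ∈ S := fun x hx => by
      have := AddSubgroup.smul_mem_pointwise_smul x t S hx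
      rwa [hS] at this
    have h1 : S.map (dl t) ≤ S := by
      rintro _ ⟨x, hx, rfl⟩
      exact sub_mem (hmem x hx) hx
    have h2 : S.map (dl t) < S := by
      refine lt_of_le_of_ne h1 fun heq => ?_
      obtain ⟨a, ha, ha0, hta⟩ := exists_fixed hΓ hM (Subgroup.zpowers t) S (zpow_smul_mem hS) hbot
      have hsurj : Function.Surjective (fun x : S => (⟨dl t x, h1 ⟨x, x.2, rfl⟩⟩ : S)) := by
        rintro ⟨y, hy⟩
        rw [← heq] at hy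
        obtain ⟨x, hx, rfl⟩ := hy
        exact ⟨⟨x, hx⟩, rfl⟩
      have hinj := Finite.injective_iff_surjective.mpr hsurj
      have h3 : (⟨a, ha⟩ : S) = 0 := hinj (Subtype.ext (by
        change t • a - a = t • (0 : M) - 0
        rw [hta t (Subgroup.mem_zpowers t)]
        simp))
      exact ha0 (congrArg Subtype.val h3)
    have h3 : t • (S.map (dl t)) = S.map (dl t) := by
      apply smul_eq_of_le
      rintro x hx
      obtain ⟨_, ⟨y, hy, rfl⟩, rfl⟩ := (AddSubgroup.mem_smul_pointwise_iff_exists _ _ _).mp hx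
      refine ⟨t • y, hmem y hy, ?_⟩
      change t • t • y - t • y = t • (t • y - y)
      rw [smul_sub]
    obtain ⟨k, hk⟩ := ih _ h2 h3
    exact ⟨k + 1, fun x hx => by
      rw [Function.iterate_succ_apply]
      exact hk _ ⟨x, hx, rfl⟩⟩

/-- **Lemma B** first part -/
theorem exists_cent_atom [Finite M] [Finite Γ] (hΓ : IsPGroup p Γ) (hM : ∃ n, Nat.card M = p ^ n) (h𝓢 : Lat 𝓢)
    (heqv : ∀ L L', At 𝓢 L → At 𝓢 L' → Eqv 𝓢 L L')
    (hact : ∀ g : Γ, ∀ S ∈ 𝓢, g • S ∈ 𝓢) {t : Γ} {E : AddSubgroup M} (hE : At 𝓢 E)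
    (hEt : ∀ e ∈ E, t • e = e) {S : AddSubgroup M} (hS : S ∈ 𝓢) (hSt : t • S = S) (hne : S ≠ ⊥) :
    ∃ L, At 𝓢 L ∧ L ≤ S ∧ ∀ x ∈ L, t • x = x := by
  rcases hE.inf_eq h𝓢 hS with hES | hES
  swap
  · exact ⟨E, hE, hES, hEt⟩
  have hmem : ∀ x ∈ S, t • x ∈ S := fun x hx => by
    have := AddSubgroup.smul_mem_pointwise_smul x t S hx
    rwa [hSt] at this
  -- `δ(L) ∈ 𝓢` for atoms
  have hδ : ∀ L, At 𝓢 L → L ≤ S → L.map (dl t) ∈ 𝓢 := by
    intro L hL hLS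
    have hLE : L ≠ E := by
      rintro rfl
      rw [inf_eq_left.mpr hLS] at hES
      exact hL.2.1 hES
    obtain ⟨c, hc, hc1, hcL, hcE⟩ := (heqv L E hL hE).resolve_left hLE
    have hLc : L ≤ E ⊔ c := exch h𝓢 hE hL hc (by rwa [sup_comm]) hcE
    have heq : L.map (dl t) = (c ⊔ t • c) ⊓ S := by
      apply le_antisymm
      · rintro _ ⟨a, ha, rfl⟩
        refine AddSubgroup.mem_inf.mpr ⟨?_, sub_mem (hmem a (hLS ha)) (hLS ha)⟩
        obtain ⟨e, he, l, hl, rfl⟩ := AddSubgroup.mem_sup.mp (hLc ha)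
        have : dl t (e + l) = -l + t • l := by
          rw [dl_apply, smul_add, hEt e he]
          abel
        rw [this]
        exact add_mem (AddSubgroup.mem_sup_left (neg_mem hl))
          (AddSubgroup.mem_sup_right (AddSubgroup.smul_mem_pointwise_smul l t c hl))
      · intro x hx
        obtain ⟨hx1, hxS⟩ := AddSubgroup.mem_inf.mp hx
        obtain ⟨l₁, hl₁, _, hl₂', rfl⟩ := AddSubgroup.mem_sup.mp hx1
        obtain ⟨l₂, hl₂, rfl⟩ := (AddSubgroup.mem_smul_pointwise_iff_exists _ _ _).mp hl₂'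
        obtain ⟨a₁, ha₁, e₁, he₁, rfl⟩ := AddSubgroup.mem_sup.mp (hc1 hl₁)
        obtain ⟨a₂, ha₂, e₂, he₂, rfl⟩ := AddSubgroup.mem_sup.mp (hc1 hl₂)
        have k1 : e₁ + e₂ ∈ E ⊓ S := by
          refine AddSubgroup.mem_inf.mpr ⟨add_mem he₁ he₂, ?_⟩
          have : e₁ + e₂ = (a₁ + e₁ + t • (a₂ + e₂)) - a₁ - t • a₂ := by
            rw [smul_add, hEt e₂ he₂]
            abel
          rw [this]
          exact sub_mem (sub_mem hxS (hLS ha₁)) (hmem _ (hLS ha₂))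
        rw [hES, AddSubgroup.mem_bot] at k1
        have k2 : a₁ + a₂ ∈ c ⊓ L := by
          refine AddSubgroup.mem_inf.mpr ⟨?_, add_mem ha₁ ha₂⟩
          have : a₁ + a₂ = (a₁ + e₁) + (a₂ + e₂) - (e₁ + e₂) := by abel
          rw [this, k1, sub_zero]
          exact add_mem hl₁ hl₂
        rw [At.disj h𝓢 hc hL hcL, AddSubgroup.mem_bot] at k2
        refine ⟨a₂, ha₂, ?_⟩
        have k3 : a₁ = -a₂ := eq_neg_of_add_eq_zero_left k2
        have k4 : e₁ = -e₂ := eq_neg_of_add_eq_zero_left k1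
        rw [dl_apply, smul_add, hEt e₂ he₂, k3, k4]
        abel
    rw [heq]
    exact h𝓢.inf _ (h𝓢.sup _ hc.1 _ (hact t c hc.1)) _ hS
  -- minimal exponent
  obtain ⟨k₀, hk₀⟩ := dl_nilp hΓ hM t S hSt
  have hex : ∃ k : ℕ, ∃ X ∈ 𝓢, X ≠ ⊥ ∧ X ≤ S ∧ ∀ x ∈ X, (dl t)^[k] x = 0 := ⟨k₀, S, hS, hne, le_rfl, hk₀⟩
  classical
  obtain ⟨X, hX, hXne, hXS, hXk⟩ := Nat.find_spec hex
  set k := Nat.find hex with hk
  obtain ⟨L, hL, hLX⟩ := exists_at hX hXne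
  refine ⟨L, hL, hLX.trans hXS, ?_⟩
  rcases Nat.eq_zero_or_pos k with hk0 | hk0
  · exfalso
    obtain ⟨x, hx, hx0⟩ := exists_ne hL.2.1
    have := hXk x (hLX hx)
    rw [hk0] at this
    exact hx0 this
  by_cases hδL : L.map (dl t) = ⊥
  · intro x hx
    have h1 : dl t x ∈ L.map (dl t) := ⟨x, hx, rfl⟩
    rw [hδL, AddSubgroup.mem_bot, dl_apply] at h1
    exact sub_eq_zero.mp h1
  · exfalso
    have h1 : ∃ X ∈ 𝓢, X ≠ ⊥ ∧ X ≤ S ∧ ∀ x ∈ X, (dl t)^[k - 1] x = 0 := by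
      refine ⟨L.map (dl t), hδ L hL (hLX.trans hXS), hδL, ?_, ?_⟩
      · rintro _ ⟨x, hx, rfl⟩
        exact sub_mem (hmem x (hXS (hLX hx))) (hXS (hLX hx))
      · rintro _ ⟨x, hx, rfl⟩
        have h2 := hXk x (hLX hx)
        obtain ⟨j, hj⟩ := Nat.exists_eq_succ_of_ne_zero hk0.ne'
        rw [hj, Function.iterate_succ_apply] at h2
        rw [hj]
        exact h2
    have h2 := Nat.find_min hex (m := k - 1) (by omega)
    exact h2 h1

/-- the fixed points of `t` -/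
def fx (t : Γ) : AddSubgroup M where
  carrier := {x | t • x = x}
  zero_mem' := smul_zero t
  add_mem' := fun {x y} hx hy => by
    change t • (x + y) = x + y
    rw [smul_add, hx, hy]
  neg_mem' := fun {x} hx => by
    change t • (-x) = -x
    rw [smul_neg, hx]

theorem mem_fx {t : Γ} {x : M} : x ∈ fx (M := M) t ↔ t • x = x := Iff.rfl

/-- **Lemma B** -/
theorem fx_mem [Finite M] [Finite Γ] (hΓ : IsPGroup p Γ) (hM : ∃ n, Nat.card M = p ^ n) (h𝓢 : Lat 𝓢)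
    {𝒪 : Set (AddSubgroup M)} (h𝒪 : ∀ L ∈ 𝒪, At 𝓢 L) (hspan : sSup 𝒪 = ⊤)
    (heqv : ∀ L L', At 𝓢 L → At 𝓢 L' → Eqv 𝓢 L L')
    (hact : ∀ g : Γ, ∀ S ∈ 𝓢, g • S ∈ 𝓢) {t : Γ} {E : AddSubgroup M} (hE : At 𝓢 E)
    (hEt : ∀ e ∈ E, t • e = e) : fx t ∈ 𝓢 := by
  -- `D` is the largest member of `𝓢` inside `fx t`
  obtain ⟨D, hD, hmax⟩ := (Set.toFinite {S : AddSubgroup M | S ∈ 𝓢 ∧ S ≤ fx t}).exists_maximalFor id _
    ⟨⊥, h𝓢.bot, bot_le⟩
  have hmaxD : ∀ S ∈ 𝓢, S ≤ fx t → S ≤ D := fun S hS hSt =>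
    le_sup_right.trans (hmax (j := D ⊔ S) ⟨h𝓢.sup _ hD.1 _ hS, sup_le hD.2 hSt⟩ le_sup_left)
  obtain ⟨C, hC, hCD, hCD'⟩ := exists_compl h𝓢 h𝒪 hspan hD.1
  suffices h : C ⊓ fx t = ⊥ by
    have : fx t = D := by
      apply le_antisymm _ hD.2
      intro x hx
      have hx' : x ∈ C ⊔ D := by rw [hCD']; trivial
      obtain ⟨c, hc, d, hd, rfl⟩ := AddSubgroup.mem_sup.mp hx'
      have h1 : c ∈ C ⊓ fx t := by
        refine AddSubgroup.mem_inf.mpr ⟨hc, ?_⟩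
        have : c = (c + d) - d := by abel
        rw [this]
        exact sub_mem hx (hD.2 hd)
      rw [h, AddSubgroup.mem_bot] at h1
      rw [h1, zero_add]
      exact hd
    rw [this]
    exact hD.1
  by_contra hne
  obtain ⟨S, hS, hmin⟩ := (Set.toFinite {S : AddSubgroup M | S ∈ 𝓢 ∧ S ≤ C ∧ S ⊓ fx t ≠ ⊥}).exists_minimalFor id _
    ⟨C, hC, le_rfl, hne⟩
  have h1 : (S ⊓ t • S) ⊓ fx t = S ⊓ fx t := by
    apply le_antisymm (inf_le_inf_right _ inf_le_left)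
    intro x hx
    obtain ⟨hx1, hx2⟩ := AddSubgroup.mem_inf.mp hx
    refine AddSubgroup.mem_inf.mpr ⟨AddSubgroup.mem_inf.mpr ⟨hx1, ?_⟩, hx2⟩
    have := AddSubgroup.smul_mem_pointwise_smul x t S hx1
    rwa [mem_fx.mp hx2] at this
  have h2 : S ≤ S ⊓ t • S := hmin (j := S ⊓ t • S)
    ⟨h𝓢.inf _ hS.1 _ (hact t S hS.1), inf_le_left.trans hS.2.1, by rw [h1]; exact hS.2.2⟩ inf_le_left
  have h3 : t • S = S := smul_eq_of_ge (h2.trans inf_le_right)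
  have h4 : S ≠ ⊥ := by
    rintro rfl
    exact hS.2.2 (bot_inf_eq _)
  obtain ⟨L, hL, hLS, hLt⟩ := exists_cent_atom hΓ hM h𝓢 heqv hact hE hEt hS.1 h3 h4
  have h5 : L ≤ C ⊓ D := le_inf (hLS.trans hS.2.1) (hmaxD L hL.1 hLt)
  rw [hCD] at h5
  exact hL.2.1 (le_bot_iff.mp h5)

/-- **The fixed point theorem** -/
theorem core [Finite M] [Finite Γ] (hΓ : IsPGroup p Γ) (hM : ∃ n, Nat.card M = p ^ n) (h𝓢 : Lat 𝓢)
    (hact : ∀ g : Γ, ∀ S ∈ 𝓢, g • S ∈ 𝓢) (T : Set Γ) (hT : Subgroup.closure T = ⊤)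
    (hTc : ∀ g : Γ, ∀ t ∈ T, g * t * g⁻¹ ∈ T) (L₀ : AddSubgroup M) (hL₀ : At 𝓢 L₀)
    (hspan : ⨆ g : Γ, g • L₀ = ⊤)
    (hQ : ∀ g : Γ, ∀ t ∈ T, ∃ E ∈ 𝓢, (∀ e ∈ E, t • e = e) ∧ E ≤ g • L₀ ⊔ t • g • L₀ ∧
      t • g • L₀ ≤ g • L₀ ⊔ E)
    (hD : ∀ D ∈ 𝓢, (∀ g : Γ, g • D = D) → ∃ D' ∈ 𝓢, (∀ g : Γ, g • D' = D') ∧ D ⊓ D' = ⊥ ∧ D ⊔ D' = ⊤) :
    ∀ g : Γ, g • L₀ = L₀ := by
  have hatg : ∀ g : Γ, At 𝓢 (g • L₀) := fun g => At.smul hact hL₀ g
  -- if `t` moves a conjugate of `L₀`, then it centralises some third atom on the line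
  have hQ' : ∀ g : Γ, ∀ t ∈ T, t • g • L₀ ≠ g • L₀ →
      ∃ E, At 𝓢 E ∧ (∀ e ∈ E, t • e = e) ∧ E ≤ g • L₀ ⊔ t • g • L₀ ∧ E ≠ g • L₀ ∧ E ≠ t • g • L₀ := by
    intro g t ht hne
    obtain ⟨E, hE, h1, h2, h3⟩ := hQ g t ht
    have hE0 : E ≠ ⊥ := by
      rintro rfl
      rw [sup_bot_eq] at h3
      exact hne (smul_eq_of_le h3)
    obtain ⟨E₁, hE₁, hE₁E⟩ := exists_at hE hE0
    have hE₁t : t • E₁ = E₁ := by
      apply smul_eq_of_le
      intro x hx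
      obtain ⟨y, hy, rfl⟩ := (AddSubgroup.mem_smul_pointwise_iff_exists _ _ _).mp hx
      rw [h1 y (hE₁E hy)]
      exact hy
    refine ⟨E₁, hE₁, fun e he => h1 e (hE₁E he), hE₁E.trans h2, ?_, ?_⟩
    · rintro rfl
      exact hne hE₁t
    · rintro rfl
      exact hne (smul_left_cancel t hE₁t)
  -- all atoms are equivalent
  have hconj : ∀ g h : Γ, Eqv 𝓢 (h • L₀) (g • h • L₀) := by
    intro g
    have hg : g ∈ Subgroup.closure T := by rw [hT]; trivial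
    induction hg using Subgroup.closure_induction with
    | mem t ht =>
      intro h
      by_cases he : t • h • L₀ = h • L₀
      · exact Or.inl he.symm
      · obtain ⟨E, hE, -, h2, h3, h4⟩ := hQ' h t ht he
        exact Or.inr ⟨E, hE, h2, h3, h4⟩
    | one => intro h; rw [one_smul]; exact Or.inl rfl
    | mul x y _ _ hx hy =>
      intro h
      rw [mul_smul]
      refine Eqv.trans h𝓢 (hatg h) (At.smul hact (hatg h) y) (At.smul hact (At.smul hact (hatg h) y) x)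
        (hy h) ?_
      have := hx (y * h)
      rwa [mul_smul] at this
    | inv x _ hx =>
      intro h
      have := hx (x⁻¹ * h)
      rw [mul_smul, smul_inv_smul] at this
      exact this.symm
  set 𝒪 : Set (AddSubgroup M) := Set.range (fun g : Γ => g • L₀) with h𝒪def
  have h𝒪 : ∀ L ∈ 𝒪, At 𝓢 L := by
    rintro _ ⟨g, rfl⟩
    exact hatg g
  have hspan' : sSup 𝒪 = ⊤ := by
    rw [h𝒪def, sSup_range]
    exact hspan
  have heqv : ∀ L L', At 𝓢 L → At 𝓢 L' → Eqv 𝓢 L L' := by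
    intro L L' hL hL'
    obtain ⟨_, ⟨g, rfl⟩, h1⟩ := exists_eqv h𝓢 h𝒪 hspan' hL
    obtain ⟨_, ⟨g', rfl⟩, h2⟩ := exists_eqv h𝓢 h𝒪 hspan' hL'
    have h3 : Eqv 𝓢 (g • L₀) (g' • L₀) := by
      have := hconj (g' * g⁻¹) g
      rwa [smul_smul, inv_mul_cancel_right] at this
    exact Eqv.trans h𝓢 hL (hatg g) hL' h1 (Eqv.trans h𝓢 (hatg g) (hatg g') hL' h3 h2.symm)
  -- the elements of `T` centralising some atom
  set T₀ : Set Γ := {t | t ∈ T ∧ ∃ E, At 𝓢 E ∧ ∀ e ∈ E, t • e = e} with hT₀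
  have hT₀c : ∀ g : Γ, ∀ t ∈ T₀, g * t * g⁻¹ ∈ T₀ := by
    rintro g t ⟨ht, E, hE, hEt⟩
    refine ⟨hTc g t ht, g • E, At.smul hact hE g, ?_⟩
    intro e he
    obtain ⟨y, hy, rfl⟩ := (AddSubgroup.mem_smul_pointwise_iff_exists _ _ _).mp he
    rw [smul_smul, inv_mul_cancel_right, mul_smul, hEt y hy]
  have hfx : ∀ t ∈ T₀, fx t ∈ 𝓢 := by
    rintro t ⟨-, E, hE, hEt⟩
    exact fx_mem hΓ hM h𝓢 h𝒪 hspan' heqv hact hE hEt
  -- the intersection of the fixed point subgroups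
  set D₀ : AddSubgroup M := sInf ((fun t : Γ => fx (M := M) t) '' T₀) with hD₀
  have hD₀mem : ∀ x, x ∈ D₀ ↔ ∀ t ∈ T₀, t • x = x := by
    intro x
    rw [hD₀, AddSubgroup.mem_sInf]
    constructor
    · intro h t ht
      exact h _ ⟨t, ht, rfl⟩
    · rintro h _ ⟨t, ht, rfl⟩
      exact h t ht
  have hD₀S : D₀ ∈ 𝓢 := by
    have hgen : ∀ s : Set (AddSubgroup M), s.Finite → s ⊆ 𝓢 → sInf s ∈ 𝓢 := by
      intro s hs
      induction s, hs using Set.Finite.induction_on with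
      | empty => intro _; rw [sInf_empty]; exact h𝓢.top
      | insert _ _ ih =>
        intro hsub
        rw [sInf_insert]
        exact h𝓢.inf _ (hsub (Set.mem_insert _ _)) _ (ih ((Set.subset_insert _ _).trans hsub))
    refine hgen _ (Set.toFinite _) ?_
    rintro _ ⟨t, ht, rfl⟩
    exact hfx t ht
  have hD₀inv : ∀ g : Γ, g • D₀ = D₀ := by
    intro g
    apply smul_eq_of_le
    intro x hx
    obtain ⟨y, hy, rfl⟩ := (AddSubgroup.mem_smul_pointwise_iff_exists _ _ _).mp hx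
    rw [hD₀mem] at hy ⊢
    intro t ht
    have h1 := hy _ (by have := hT₀c g⁻¹ t ht; rwa [inv_inv] at this)
    rw [mul_smul, mul_smul, inv_smul_eq_iff] at h1
    exact h1
  obtain ⟨D', hD', hD'inv, hdisj, hcod⟩ := hD D₀ hD₀S hD₀inv
  have hD'bot : D' = ⊥ := by
    by_contra hne
    obtain ⟨x, hx, hx0, hxf⟩ := exists_fixed hΓ hM (Subgroup.closure T₀) D' (fun g _ x hx => by
      have := AddSubgroup.smul_mem_pointwise_smul x g D' hx
      rwa [hD'inv] at this) hne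
    have h1 : x ∈ D₀ ⊓ D' := by
      refine AddSubgroup.mem_inf.mpr ⟨?_, hx⟩
      rw [hD₀mem]
      exact fun t ht => hxf t (Subgroup.subset_closure ht)
    rw [hdisj, AddSubgroup.mem_bot] at h1
    exact hx0 h1
  rw [hD'bot, sup_bot_eq] at hcod
  have hfix : ∀ t ∈ T, t • L₀ = L₀ := by
    intro t ht
    by_contra hne
    obtain ⟨E, hE, hEt, -⟩ := hQ' 1 t ht (by rwa [one_smul])
    apply hne
    apply smul_eq_of_le
    intro x hx
    obtain ⟨y, hy, rfl⟩ := (AddSubgroup.mem_smul_pointwise_iff_exists _ _ _).mp hx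
    have h1 : y ∈ D₀ := by rw [hcod]; trivial
    rw [(hD₀mem y).mp h1 t ⟨ht, E, hE, hEt⟩]
    exact hy
  intro g
  have hg : g ∈ Subgroup.closure T := by rw [hT]; trivial
  have h1 : Subgroup.closure T ≤ MulAction.stabilizer Γ L₀ := by
    rw [Subgroup.closure_le]
    exact fun t ht => hfix t ht
  exact h1 hg

end Action

end Cfsg.Agent.H264.FixAtom
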