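import Cfsg.Agent.H264.FixAtom
import Mathlib.GroupTheory.QuotientGroup.Basic

/-!
# The fixed-point theorem, for subgroups of a group above a normal subgroup with abelian factor group (helper264)
-/

set_option autoImplicit false
set_option linter.style.haveILetI false

open scoped Pointwise commutatorElement

namespace Cfsg.Agent.H264.FixQuot

open Cfsg.Agent.H264.FixAtom

variable {Y : Type*} [Group Y] (N : Subgroup Y) [N.Normal]

/-- the commutative quotient group -/
@[reducible] def quotComm (hc : ∀ x y : Y, ⁅x, y⁆ ∈ N) : CommGroup (Y ⧸ N) :=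
  { (inferInstance : Group (Y ⧸ N)) with
    mul_comm := by
      intro a b
      induction a using QuotientGroup.induction_on with
      | H x =>
        induction b using QuotientGroup.induction_on with
        | H y =>
          rw [← QuotientGroup.mk_mul, ← QuotientGroup.mk_mul, QuotientGroup.eq]
          have h := hc y⁻¹ x⁻¹
          rw [commutatorElement_def, inv_inv, inv_inv] at h
          have : (x * y)⁻¹ * (y * x) = y⁻¹ * x⁻¹ * y * x := by group
          rw [this]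
          exact h }

variable {Γ : Type*} [Group Γ] [MulDistribMulAction Γ Y]

/-- the action on the quotient, as a map -/
def qmap (hN : ∀ g : Γ, ∀ x ∈ N, g • x ∈ N) (g : Γ) : Y ⧸ N →* Y ⧸ N :=
  QuotientGroup.map N N (MulDistribMulAction.toMonoidHom Y g) (fun x hx => hN g x hx)

theorem qmap_mk (hN : ∀ g : Γ, ∀ x ∈ N, g • x ∈ N) (g : Γ) (x : Y) :
    qmap N hN g (x : Y ⧸ N) = ((g • x : Y) : Y ⧸ N) := rfl

/-- the action on the additive quotient -/
@[reducible] def quotAct (hc : ∀ x y : Y, ⁅x, y⁆ ∈ N) (hN : ∀ g : Γ, ∀ x ∈ N, g • x ∈ N) :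
    letI := quotComm N hc
    DistribMulAction Γ (Additive (Y ⧸ N)) :=
  letI := quotComm N hc
  { smul := fun g m => Additive.ofMul (qmap N hN g m.toMul)
    one_smul := by
      intro m
      refine Additive.toMul.injective ?_
      change qmap N hN 1 m.toMul = m.toMul
      induction m.toMul using QuotientGroup.induction_on with
      | H x => rw [qmap_mk, one_smul]
    mul_smul := by
      intro g h m
      refine Additive.toMul.injective ?_
      change qmap N hN (g * h) m.toMul = qmap N hN g (qmap N hN h m.toMul)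
      induction m.toMul using QuotientGroup.induction_on with
      | H x => rw [qmap_mk, qmap_mk, qmap_mk, mul_smul]
    smul_zero := by
      intro g
      refine Additive.toMul.injective ?_
      change qmap N hN g 1 = 1
      exact map_one _
    smul_add := by
      intro g x y
      refine Additive.toMul.injective ?_
      change qmap N hN g (x.toMul * y.toMul) = qmap N hN g x.toMul * qmap N hN g y.toMul
      exact map_mul _ _ _ }

theorem core' {p : ℕ} [Fact p.Prime] [Finite Y] [Finite Γ] (hY : IsPGroup p Y) (hΓ : IsPGroup p Γ)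
    (hc : ∀ x y : Y, ⁅x, y⁆ ∈ N) (hN : ∀ g : Γ, ∀ x ∈ N, g • x ∈ N)
    (𝓣 : Set (Subgroup Y)) (hle : ∀ S ∈ 𝓣, N ≤ S) (hbot : N ∈ 𝓣) (htop : ⊤ ∈ 𝓣)
    (hsup : ∀ a ∈ 𝓣, ∀ b ∈ 𝓣, a ⊔ b ∈ 𝓣) (hinf : ∀ a ∈ 𝓣, ∀ b ∈ 𝓣, a ⊓ b ∈ 𝓣)
    (hact : ∀ g : Γ, ∀ S ∈ 𝓣, g • S ∈ 𝓣) (T : Set Γ) (hT : Subgroup.closure T = ⊤)
    (hTc : ∀ g : Γ, ∀ t ∈ T, g * t * g⁻¹ ∈ T) (L₀ : Subgroup Y) (hL₀ : L₀ ∈ 𝓣) (hL₀N : L₀ ≠ N)
    (hL₀a : ∀ S ∈ 𝓣, S ≤ L₀ → S = N ∨ S = L₀)
    (hspan : ⨆ g : Γ, g • L₀ = ⊤)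
    (hQ : ∀ g : Γ, ∀ t ∈ T, ∃ E ∈ 𝓣, (∀ e ∈ E, (t • e) * e⁻¹ ∈ N) ∧ E ≤ g • L₀ ⊔ t • g • L₀ ∧
      t • g • L₀ ≤ g • L₀ ⊔ E)
    (hD : ∀ D ∈ 𝓣, (∀ g : Γ, g • D = D) → ∃ D' ∈ 𝓣, (∀ g : Γ, g • D' = D') ∧ D ⊓ D' = N ∧ D ⊔ D' = ⊤) :
    ∀ g : Γ, g • L₀ = L₀ := by
  letI := quotComm N hc
  letI : DistribMulAction Γ (Additive (Y ⧸ N)) := quotAct N hc hN
  let π : Y →* Y ⧸ N := QuotientGroup.mk' N
  have hπ : Function.Surjective π := QuotientGroup.mk'_surjective N
  let pre : AddSubgroup (Additive (Y ⧸ N)) → Subgroup Y := fun S => (AddSubgroup.toSubgroup' S).comap π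
  let im : Subgroup Y → AddSubgroup (Additive (Y ⧸ N)) := fun L => Subgroup.toAddSubgroup (L.map π)
  have hpm : ∀ S x, x ∈ pre S ↔ Additive.ofMul (π x) ∈ S := fun S x => Iff.rfl
  have him : ∀ L : Subgroup Y, N ≤ L → pre (im L) = L := by
    intro L hL
    change (L.map π).comap π = L
    rw [Subgroup.comap_map_eq, sup_eq_left.mpr]
    rw [QuotientGroup.ker_mk']
    exact hL
  have hinj : Function.Injective pre := by
    intro S S' h
    exact AddSubgroup.toSubgroup'.injective (Subgroup.comap_injective hπ h)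
  have hmono : ∀ S S', pre S ≤ pre S' ↔ S ≤ S' := by
    intro S S'
    constructor
    · intro h
      have h1 := (Subgroup.comap_le_comap_of_surjective hπ).mp h
      exact h1
    · intro h x hx
      exact h hx
  have hpsup : ∀ S S', pre (S ⊔ S') = pre S ⊔ pre S' := by
    intro S S'
    change (AddSubgroup.toSubgroup' (S ⊔ S')).comap π = _
    rw [OrderIso.map_sup]
    exact (Subgroup.comap_sup_eq _ _ _ hπ).symm
  have hpinf : ∀ S S', pre (S ⊓ S') = pre S ⊓ pre S' := fun S S' => rfl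
  have hpbot : pre ⊥ = N := by
    ext x
    rw [hpm, AddSubgroup.mem_bot]
    exact QuotientGroup.eq_one_iff x
  have hptop : pre ⊤ = ⊤ := rfl
  have hsm : ∀ (g : Γ) (x : Y), g • (Additive.ofMul (π x)) = Additive.ofMul (π (g • x)) := fun g x => rfl
  have hpsm : ∀ (g : Γ) S, pre (g • S) = g • pre S := by
    intro g S
    ext x
    rw [hpm, Subgroup.mem_pointwise_smul_iff_inv_smul_mem, hpm,
      AddSubgroup.mem_pointwise_smul_iff_inv_smul_mem, hsm]
  have h𝓢 : Lat {S | pre S ∈ 𝓣} := by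
    refine ⟨?_, ?_, ?_, ?_⟩
    · change pre ⊥ ∈ 𝓣; rw [hpbot]; exact hbot
    · exact htop
    · intro a ha b hb
      change pre (a ⊔ b) ∈ 𝓣
      rw [hpsup]; exact hsup _ ha _ hb
    · intro a ha b hb
      exact hinf _ ha _ hb
  have hgN : ∀ g : Γ, ∀ L : Subgroup Y, N ≤ L → N ≤ g • L := by
    intro g L hL x hx
    rw [Subgroup.mem_pointwise_smul_iff_inv_smul_mem]
    exact hL (hN _ _ hx)
  have himsm : ∀ (g : Γ) (L : Subgroup Y), N ≤ L → g • im L = im (g • L) := by
    intro g L hL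
    apply hinj
    rw [hpsm, him L hL, him _ (hgN g L hL)]
  have hNL₀ := hle L₀ hL₀
  have key := core (M := Additive (Y ⧸ N)) (Γ := Γ) (𝓢 := {S | pre S ∈ 𝓣}) hΓ (by
      obtain ⟨n, hn⟩ := IsPGroup.iff_card.mp (hY.to_quotient N)
      exact ⟨n, hn⟩) h𝓢
    (fun g S hS => by
      change pre (g • S) ∈ 𝓣
      rw [hpsm]
      exact hact g _ hS) T hT hTc (im L₀)
    ⟨by
      change pre (im L₀) ∈ 𝓣
      rw [him L₀ hNL₀]; exact hL₀, fun h => hL₀N (by rw [← him L₀ hNL₀, h, hpbot]), fun S hS hSL => by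
        have h1 : pre S ≤ L₀ := by rw [← him L₀ hNL₀]; exact (hmono _ _).mpr hSL
        rcases hL₀a _ hS h1 with h | h
        · left
          apply hinj
          rw [h, hpbot]
        · right
          apply hinj
          rw [h, him L₀ hNL₀]⟩
    (by
      rw [eq_top_iff]
      rw [← hmono, hptop, ← hspan]
      refine iSup_le fun g => ?_
      rw [← him (g • L₀) (hgN g L₀ hNL₀), hmono, ← himsm g L₀ hNL₀]
      exact le_iSup (fun g : Γ => g • im L₀) g)
    (by
      intro g t ht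
      obtain ⟨E, hE, h1, h2, h3⟩ := hQ g t ht
      have hNE := hle E hE
      refine ⟨im E, by change pre (im E) ∈ 𝓣; rw [him E hNE]; exact hE, ?_, ?_, ?_⟩
      · rintro e ⟨y, hy, rfl⟩
        have h4 := h1 y hy
        have h5 : π (t • y) = π y := by
          have : π ((t • y) * y⁻¹) = 1 := (QuotientGroup.eq_one_iff _).mpr h4
          rw [map_mul, map_inv, mul_inv_eq_one] at this
          exact this
        exact congrArg Additive.ofMul h5
      · rw [himsm g L₀ hNL₀, himsm t _ (hgN g L₀ hNL₀), ← hmono, hpsup, him E hNE, him _ (hgN g L₀ hNL₀),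
          him _ (hgN t _ (hgN g L₀ hNL₀))]
        exact h2
      · rw [himsm g L₀ hNL₀, himsm t _ (hgN g L₀ hNL₀), ← hmono, hpsup, him E hNE, him _ (hgN g L₀ hNL₀),
          him _ (hgN t _ (hgN g L₀ hNL₀))]
        exact h3)
    (by
      intro D hD1 hD2
      obtain ⟨D', hD', h1, h2, h3⟩ := hD (pre D) hD1 (fun g => by rw [← hpsm, hD2])
      have hND' := hle D' hD'
      refine ⟨im D', by change pre (im D') ∈ 𝓣; rw [him D' hND']; exact hD', ?_, ?_, ?_⟩
      · intro g
        rw [himsm g D' hND', h1]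
      · apply hinj
        rw [hpinf, him D' hND', h2, hpbot]
      · apply hinj
        rw [hpsup, him D' hND', h3, hptop])
  intro g
  have h1 := key g
  rw [himsm g L₀ hNL₀] at h1
  have h2 := congrArg pre h1
  rwa [him _ hNL₀, him _ (hgN g L₀ hNL₀)] at h2

end Cfsg.Agent.H264.FixQuot
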